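import Cfsg.Prelude.Def_CaseTheorems
import Mathlib.GroupTheory.Sylow
import Mathlib.GroupTheory.Nilpotent

/-! Harris's lemma: a 2-group with a four-group `B` all of whose involutions have the same small centralizer
`T` has sectional rank at most four. Basic tools. -/

set_option autoImplicit false

namespace CfsgLib.HarrisRank

variable {P : Type*} [Group P]

/-- Every exponent two quotient of every subgroup has order at most 16. -/
def SectFour (P : Type*) [Group P] : Prop :=
  ∀ (H : Subgroup P) (N : Subgroup H), N.Normal → (∀ a : H, a * a ∈ N) → N.index ≤ 16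

theorem sq_quot {H : Type*} [Group H] (N : Subgroup H) [N.Normal] (h : ∀ a : H, a * a ∈ N)
    (q : H ⧸ N) : q * q = 1 := by
  obtain ⟨a, rfl⟩ := QuotientGroup.mk_surjective q
  rw [← QuotientGroup.mk_mul, QuotientGroup.eq_one_iff]
  exact h a

theorem comm_of_sq {H : Type*} [Group H] (h : ∀ q : H, q * q = 1) (a b : H) : a * b = b * a := by
  have ea := inv_eq_of_mul_eq_one_right (h a)
  have eb := inv_eq_of_mul_eq_one_right (h b)
  have eab := inv_eq_of_mul_eq_one_right (h (a * b))
  rw [mul_inv_rev, ea, eb] at eab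
  exact eab.symm

/-- An exponent two quotient has order at most the order of the centralizer of any element. -/
theorem index_le_centralizer {H : Type*} [Group H] [Finite H] (N : Subgroup H) [N.Normal]
    (hsq : ∀ a : H, a * a ∈ N) (e : H) :
    N.index ≤ Nat.card (Subgroup.centralizer ({e} : Set H)) := by
  have hc : ∀ h : H, h * e * h⁻¹ * e⁻¹ ∈ N := fun h => by
    rw [← QuotientGroup.eq_one_iff, QuotientGroup.mk_mul, QuotientGroup.mk_mul, QuotientGroup.mk_mul,
      comm_of_sq (sq_quot N hsq) (h : H ⧸ N) (e : H ⧸ N)]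
    simp
  let C := Subgroup.centralizer ({e} : Set H)
  have h1 : Nat.card (H ⧸ C) ≤ Nat.card N := by
    refine Nat.card_le_card_of_injective
      (fun q => (⟨q.out * e * q.out⁻¹ * e⁻¹, hc _⟩ : N)) fun q r hqr => ?_
    have h2 : q.out * e * q.out⁻¹ = r.out * e * r.out⁻¹ :=
      mul_right_cancel (congrArg Subtype.val hqr)
    rw [← QuotientGroup.out_eq' q, ← QuotientGroup.out_eq' r, QuotientGroup.eq,
      Subgroup.mem_centralizer_singleton_iff]
    have h3 := congrArg (fun z => q.out⁻¹ * z * r.out) h2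
    simp only [mul_assoc, inv_mul_cancel_left, inv_mul_cancel, mul_one] at h3
    rw [mul_assoc]
    exact h3.symm
  have h4 := N.card_mul_index
  have h5 := C.card_mul_index
  have h6 : Nat.card C * C.index ≤ Nat.card C * Nat.card N := Nat.mul_le_mul_left _ h1
  rw [h5, ← h4] at h6
  exact Nat.le_of_mul_le_mul_left (by rw [mul_comm (Nat.card C)] at h6; exact h6) Nat.card_pos

/-- The Sylow 2-subgroup controls the sectional 2-rank. -/
theorem sectional_of_sylow {G : Type*} [Group G] [Finite G] (S : Sylow 2 G)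
    (h : SectFour ↥(S : Subgroup G)) : Cfsg.SectionalPRankLE 2 4 G := by
  intro H N hN A hA hA2
  let K := A.comap (QuotientGroup.mk' N)
  let π : K →* A := (QuotientGroup.mk' N).subgroupComap A
  have hπ : Function.Surjective π :=
    MonoidHom.subgroupComap_surjective_of_surjective _ _ (QuotientGroup.mk'_surjective N)
  have hAp : IsPGroup 2 A := fun a => ⟨1, Subtype.ext (by simpa using hA2 a a.2)⟩
  let R : Sylow 2 K := Classical.arbitrary _
  have htop : ((Sylow.mapSurjective hπ R : Sylow 2 A) : Subgroup A) = ⊤ :=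
    ((Sylow.mapSurjective hπ R).3 (Q := ⊤) (hAp.of_equiv Subgroup.topEquiv.symm) le_top).symm
  let i : ↥(R : Subgroup K) →* G := (H.subtype.comp K.subtype).comp (R : Subgroup K).subtype
  have hi : Function.Injective i :=
    (H.subtype_injective.comp K.subtype_injective).comp (R : Subgroup K).subtype_injective
  have hip : IsPGroup 2 i.range := R.2.of_surjective _ i.rangeRestrict_surjective
  obtain ⟨Q, hQ⟩ := hip.exists_le_sylow
  obtain ⟨g, hg⟩ := MulAction.exists_smul_eq G Q S
  have hmem : ∀ r, MulAut.conj g (i r) ∈ (S : Subgroup G) := fun r => by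
    rw [← hg]
    exact Subgroup.smul_mem_pointwise_smul (i r) (MulAut.conj g) _ (hQ ⟨r, rfl⟩)
  let j : ↥(R : Subgroup K) →* ↥(S : Subgroup G) :=
    ((MulAut.conj g).toMonoidHom.comp i).codRestrict _ hmem
  have hj : Function.Injective j := fun a b hab =>
    hi ((MulAut.conj g).injective (congrArg Subtype.val hab))
  let e : ↥(R : Subgroup K) ≃* j.range := MonoidHom.ofInjective hj
  let f : j.range →* A := (π.comp (R : Subgroup K).subtype).comp e.symm.toMonoidHom
  have hf : Function.Surjective f := fun a => by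
    have : a ∈ (R : Subgroup K).map π := by
      have := Subgroup.mem_top a
      rw [← htop] at this
      exact this
    obtain ⟨r, hr, hra⟩ := this
    exact ⟨e ⟨r, hr⟩, by simpa [f] using hra⟩
  have h1 := h j.range f.ker inferInstance fun a => by
    rw [MonoidHom.mem_ker, map_mul]
    exact Subtype.ext (by simpa [pow_two] using hA2 (f a) (f a).2)
  rw [Subgroup.index_ker, MonoidHom.range_eq_top.2 hf, Subgroup.card_top] at h1
  simpa using h1

theorem four_elems {K : Type*} [Group K] [Finite K] (h4 : Nat.card K = 4) (hsq : ∀ k : K, k * k = 1)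
    {a b : K} (ha : a ≠ 1) (hb : b ≠ 1) (hab : a ≠ b) (x : K) :
    x = 1 ∨ x = a ∨ x = b ∨ x = a * b := by
  classical
  haveI := Fintype.ofFinite K
  by_contra hx
  push Not at hx
  obtain ⟨h1, h2, h3, h4'⟩ := hx
  have n1 : a * b ≠ 1 := fun h => hab ((eq_inv_of_mul_eq_one_left h).trans (inv_eq_of_mul_eq_one_right (hsq b)))
  have n2 : a * b ≠ a := fun h => hb (mul_eq_left.1 h)
  have n3 : a * b ≠ b := fun h => ha (mul_eq_right.1 h)
  have hc : ({1, a, b, a * b, x} : Finset K).card = 5 := by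
    rw [Finset.card_insert_of_notMem, Finset.card_insert_of_notMem, Finset.card_insert_of_notMem,
      Finset.card_insert_of_notMem, Finset.card_singleton] <;>
      simp [ha.symm, hb.symm, hab, n1.symm, n2.symm, n3.symm, h1.symm, h2.symm, h3.symm, h4'.symm]
  have := Finset.card_le_univ ({1, a, b, a * b, x} : Finset K)
  rw [← Nat.card_eq_fintype_card, h4, hc] at this
  omega

/-- A subgroup inside the union of two subgroups lies in one of them. -/
theorem le_or_le_of_union {E T A : Subgroup P} (h : ∀ e ∈ E, e ∈ T ∨ e ∈ A) : E ≤ T ∨ E ≤ A := by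
  by_contra hc
  push Not at hc
  obtain ⟨⟨a, ha, haT⟩, ⟨b, hb, hbA⟩⟩ := And.intro (SetLike.not_le_iff_exists.1 hc.1)
    (SetLike.not_le_iff_exists.1 hc.2)
  rcases h (a * b) (mul_mem ha hb) with h1 | h1
  · exact haT (by simpa using mul_mem h1 (inv_mem ((h b hb).resolve_right hbA)))
  · exact hbA (by simpa using mul_mem (inv_mem ((h a ha).resolve_left haT)) h1)

/-- An element of order two modulo `T` which is central in `N(T) / T`. -/
theorem exists_central_mod [Finite P] (hP : IsPGroup 2 P) (T : Subgroup P) (hT : T ≠ ⊤) :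
    ∃ s ∈ Subgroup.normalizer (T : Set P), s ∉ T ∧ s * s ∈ T ∧
      ∀ n ∈ Subgroup.normalizer (T : Set P), s * n * s⁻¹ * n⁻¹ ∈ T := by
  haveI := Fact.mk Nat.prime_two
  haveI : Group.IsNilpotent P := hP.isNilpotent
  let N := Subgroup.normalizer (T : Set P)
  have hlt : T < N := Group.normalizerCondition_of_isNilpotent T (lt_top_iff_ne_top.2 hT)
  haveI : (T.subgroupOf N).Normal := Subgroup.normal_in_normalizer
  let Q := ↥N ⧸ T.subgroupOf N
  have hQ : IsPGroup 2 Q := (hP.to_subgroup N).to_quotient _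
  haveI : Nontrivial Q := QuotientGroup.nontrivial_iff.2
    (fun h => hlt.ne (le_antisymm hlt.le (Subgroup.subgroupOf_eq_top.1 h)))
  haveI := hQ.center_nontrivial
  have hd : 2 ∣ Nat.card (Subgroup.center Q) :=
    (hQ.to_subgroup _).card_eq_or_dvd.resolve_left (Finite.one_lt_card).ne'
  obtain ⟨z, hz⟩ := exists_prime_orderOf_dvd_card' 2 hd
  obtain ⟨s, hs⟩ := QuotientGroup.mk_surjective (z : Q)
  refine ⟨s, s.2, fun h => ?_, ?_, fun n hn => ?_⟩
  · have : (z : Q) = 1 := hs ▸ (QuotientGroup.eq_one_iff s).2 (Subgroup.mem_subgroupOf.2 h)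
    rw [OneMemClass.coe_eq_one] at this
    rw [this, orderOf_one] at hz
    omega
  · have h2 : (z : Q) * z = 1 := by
      rw [← Subgroup.coe_mul, ← pow_two, ← hz, pow_orderOf_eq_one]; rfl
    rw [← hs, ← QuotientGroup.mk_mul, QuotientGroup.eq_one_iff] at h2
    exact h2
  · have h2 : (((s * ⟨n, hn⟩ * s⁻¹ * (⟨n, hn⟩ : N)⁻¹ : N)) : Q) = 1 := by
      have h3 : (((⟨n, hn⟩ : N)) : Q) * z = z * _ := Subgroup.mem_center_iff.1 z.2 _
      simp only [QuotientGroup.mk_mul, QuotientGroup.mk_inv, hs]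
      rw [← h3]
      simp
    rw [QuotientGroup.eq_one_iff] at h2
    exact h2

/-- An involution modulo the centralizer acting on an elementary abelian subgroup. -/
theorem fix_bounds [Finite P] (Z : Subgroup P) (hZ : ∀ v ∈ Z, v * v = 1) (t : P)
    (htZ : ∀ v ∈ Z, t * v * t⁻¹ ∈ Z) (ht2 : ∀ v ∈ Z, t * t * v = v * (t * t)) :
    ∃ φ : Z →* Z, (∀ v : Z, (φ v : P) = t * v * t⁻¹ * v) ∧
      φ.ker = (Z ⊓ Subgroup.centralizer ({t} : Set P)).subgroupOf Z ∧
      φ.range ≤ φ.ker := by
  have hc : ∀ a ∈ Z, ∀ b ∈ Z, a * b = b * a := fun a ha b hb => by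
    have := comm_of_sq (H := Z) (fun q => Subtype.ext (hZ q q.2)) ⟨a, ha⟩ ⟨b, hb⟩
    exact congrArg Subtype.val this
  let φ : Z →* Z := MonoidHom.mk' (fun v => ⟨t * v * t⁻¹ * v, mul_mem (htZ v v.2) v.2⟩) fun a b => by
    refine Subtype.ext ?_
    show t * (↑a * ↑b) * t⁻¹ * (↑a * ↑b) = (t * ↑a * t⁻¹ * ↑a) * (t * ↑b * t⁻¹ * ↑b)
    calc _ = t * ↑a * t⁻¹ * ((t * ↑b * t⁻¹) * ↑a) * ↑b := by group
      _ = _ := by rw [hc _ (htZ b b.2) a a.2]; group
  have hker : φ.ker = (Z ⊓ Subgroup.centralizer ({t} : Set P)).subgroupOf Z := by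
    ext v
    rw [MonoidHom.mem_ker, Subgroup.mem_subgroupOf, Subgroup.mem_inf, Subgroup.mem_centralizer_singleton_iff]
    constructor
    · intro h
      have h1 : t * v * t⁻¹ * v = 1 := congrArg Subtype.val h
      rw [mul_eq_one_iff_eq_inv, inv_eq_of_mul_eq_one_right (hZ v v.2), mul_inv_eq_iff_eq_mul] at h1
      exact ⟨v.2, h1.symm⟩
    · rintro ⟨-, h⟩
      refine Subtype.ext ?_
      show t * v * t⁻¹ * v = 1
      rw [← h, mul_inv_cancel_right, hZ v v.2]
  refine ⟨φ, fun v => rfl, hker, ?_⟩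
  rintro _ ⟨v, rfl⟩
  rw [MonoidHom.mem_ker]
  refine Subtype.ext ?_
  show t * (t * v * t⁻¹ * v) * t⁻¹ * (t * v * t⁻¹ * v) = 1
  have h1 : t * (t * ↑v * t⁻¹) * t⁻¹ = (v : P) := by
    calc _ = t * t * v * (t * t)⁻¹ := by group
      _ = _ := by rw [ht2 v v.2, mul_inv_cancel_right]
  calc _ = (t * (t * ↑v * t⁻¹) * t⁻¹) * ((t * v * t⁻¹) * (t * v * t⁻¹)) * v := by group
    _ = _ := by rw [h1, hZ _ (htZ v v.2), mul_one, hZ v v.2]

end CfsgLib.HarrisRank
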